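import Mathlib

/-! The group of lifts to the universal covering tree of a group acting on a graph. -/

set_option autoImplicit false

namespace H15.Fr

open FreeGroup

universe u
variable {Γ E V : Type u} [Group Γ] [MulAction Γ E] [MulAction Γ V]

/-- action on letters -/
def lt (γ : Γ) (x : E × Bool) : E × Bool := (γ • x.1, x.2)

/-- inverse of a letter -/
def iv (x : E × Bool) : E × Bool := (x.1, !x.2)

variable (Γ E) in
/-- action on the free group -/
def act : Γ →* MulAut (FreeGroup E) :=
  MonoidHom.mk' (fun γ => freeGroupCongr (MulAction.toPerm γ)) fun a b => by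
    ext w
    show map _ w = map _ (map _ w)
    rw [map.comp]
    congr 2
    funext x
    exact mul_smul a b x

theorem act_mk (γ : Γ) (L : List (E × Bool)) : act Γ E γ (mk L) = mk (L.map (lt γ)) := rfl

theorem invRev_cons' (x : E × Bool) (L : List (E × Bool)) : invRev (x :: L) = invRev L ++ [iv x] :=
  invRev_cons

section
variable (s : E × Bool → V)

/-- paths -/
def Path : V → List (E × Bool) → V → Prop
  | a, [], b => a = b
  | a, x :: L, b => a = s x ∧ Path (s (iv x)) L b

variable {s}

theorem path_append {L L' : List (E × Bool)} {a c : V} :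
    Path s a (L ++ L') c ↔ ∃ b, Path s a L b ∧ Path s b L' c := by
  induction L generalizing a with
  | nil => simp [Path]
  | cons x L ih => simp [Path, ih, and_assoc]

theorem Path.inv {L : List (E × Bool)} {a b : V} (h : Path s a L b) : Path s b (invRev L) a := by
  induction L generalizing a with
  | nil => exact h.symm
  | cons x L ih =>
    rw [invRev_cons', path_append]
    exact ⟨_, ih h.2, rfl, by simpa [Path, iv] using h.1.symm⟩

theorem Path.map (hs : ∀ (γ : Γ) x, s (lt γ x) = γ • s x) (γ : Γ) {L : List (E × Bool)} {a b : V}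
    (h : Path s a L b) : Path s (γ • a) (L.map (lt γ)) (γ • b) := by
  induction L generalizing a with
  | nil => exact congrArg _ h
  | cons x L ih => exact ⟨by rw [hs, h.1], by have := ih h.2; rwa [← hs] at this⟩

theorem Path.red {L L' : List (E × Bool)} {a b : V} (h : Path s a L b) (r : Red L L') :
    Path s a L' b := by
  induction r with
  | refl => exact h
  | tail _ r ih =>
    obtain ⟨⟩ := r
    obtain ⟨c, h1, h2, -, h3⟩ := path_append.1 ih
    exact path_append.2 ⟨c, h1, by simpa [iv, h2] using h3⟩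

/-- the group of lifts -/
def GG (hs : ∀ (γ : Γ) x, s (lt γ x) = γ • s x) (v : V) : Subgroup (FreeGroup E ⋊[act Γ E] Γ) where
  carrier := {g | ∃ L, g.left = mk L ∧ Path s v L (g.right • v)}
  one_mem' := ⟨[], rfl, (one_smul _ _).symm⟩
  mul_mem' := fun {g k} ⟨L, a, b⟩ ⟨L', c, d⟩ => ⟨L ++ L'.map (lt g.right), by
    rw [SemidirectProduct.mul_left, a, c, act_mk, mul_mk],
    path_append.2 ⟨_, b, by simpa [mul_smul] using d.map hs g.right⟩⟩
  inv_mem' := fun {g} ⟨L, a, b⟩ => ⟨(invRev L).map (lt g.right⁻¹), by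
    rw [SemidirectProduct.inv_left, a, inv_mk, act_mk], by simpa using b.inv.map hs g.right⁻¹⟩

variable [DecidableEq E] {hs : ∀ (γ : Γ) x, s (lt γ x) = γ • s x} {v : V}

theorem GG.path {g : FreeGroup E ⋊[act Γ E] Γ} (h : g ∈ GG hs v) :
    Path s v g.left.toWord (g.right • v) := by
  obtain ⟨L, a, b⟩ := h
  rw [a, toWord_mk]
  exact b.red reduce.red

theorem GG.fix {g : FreeGroup E ⋊[act Γ E] Γ} (h : g ∈ GG hs v) (e : g.left = 1) : g.right • v = v := by
  have := GG.path h
  rw [e] at this
  exact this.symm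

theorem toWord_act (γ : Γ) (w : FreeGroup E) : (act Γ E γ w).toWord = w.toWord.map (lt γ) := by
  conv_lhs => rw [← mk_toWord (x := w), act_mk, toWord_mk]
  refine IsReduced.reduce_eq ?_
  unfold FreeGroup.IsReduced
  rw [List.isChain_map]
  exact (isReduced_toWord (x := w)).imp fun a b h e => h (smul_left_cancel γ e)

theorem norm_act (γ : Γ) (w : FreeGroup E) : (act Γ E γ w).norm = w.norm := by
  simp [FreeGroup.norm, toWord_act]

theorem norm_inv_mul {u w : FreeGroup E} {x y : E × Bool} {L L' : List (E × Bool)}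
    (hu : u.toWord = x :: L) (hw : w.toWord = y :: L') (e : x ≠ y) :
    (u⁻¹ * w).norm = u.norm + w.norm := by
  have h1 := isReduced_toWord (x := u⁻¹)
  have h2 := isReduced_toWord (x := w)
  rw [← norm_inv_eq (x := u), FreeGroup.norm, toWord_mul, IsReduced.reduce_eq, List.length_append]
  · rfl
  rw [toWord_inv, hu, invRev_cons'] at h1 ⊢
  rw [hw] at h2 ⊢
  refine List.IsChain.append h1 h2 ?_
  simp only [List.getLast?_append, List.getLast?_singleton, Option.some_or, Option.mem_def,
    Option.some.injEq, List.head?_cons, forall_eq']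
  intro k
  by_contra q
  exact e (Prod.ext k (by revert q; simp only [iv]; cases x.2 <;> cases y.2 <;> simp))

theorem GG.conj (ht : ∀ a : V, ∃ γ : Γ, γ • v = a) (d : ℕ) :
    ∀ H : Subgroup (FreeGroup E ⋊[act Γ E] Γ), H ≤ GG hs v → (∀ h ∈ H, h.left.norm ≤ d) →
      ∃ g ∈ GG hs v, ∀ h ∈ H, (g * h * g⁻¹).left = 1 := by
  induction d with
  | zero => exact fun H _ h => ⟨1, one_mem _, fun k hk => by simpa using h k hk⟩
  | succ d ih =>
    intro H hH h
    by_cases q : ∀ h ∈ H, h.left.norm ≤ d
    · exact ih H hH q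
    push Not at q
    obtain ⟨k, hk, q⟩ := q
    obtain ⟨x, L, e⟩ : ∃ x L, k.left.toWord = x :: L := List.exists_cons_of_ne_nil fun e => by
      simp [FreeGroup.norm, e] at q
    have f : ∀ g ∈ H, ∀ y L', g.left.toWord = y :: L' → x = y := fun g hg y L' e' => by
      by_contra n
      have := h _ (mul_mem (inv_mem hk) hg)
      rw [SemidirectProduct.mul_left, SemidirectProduct.inv_left, SemidirectProduct.inv_right,
        ← _root_.map_mul, norm_act, norm_inv_mul e e' n, FreeGroup.norm.eq_1 g.left, e',
        List.length_cons] at this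
      omega
    obtain ⟨γ, hγ⟩ := ht (s (iv x))
    have m : (⟨mk [x], γ⟩ : FreeGroup E ⋊[act Γ E] Γ) ∈ GG hs v :=
      ⟨[x], rfl, (e ▸ GG.path (hH hk)).1, hγ.symm⟩
    obtain ⟨g, hg, a⟩ := ih (H.map (MulAut.conj (⟨mk [x], γ⟩ : FreeGroup E ⋊[act Γ E] Γ)⁻¹).toMonoidHom)
      (by
        rintro _ ⟨g, hg, rfl⟩
        exact mul_mem (mul_mem (inv_mem m) (hH hg)) (inv_mem (inv_mem m))) (by
        rintro _ ⟨g, hg, rfl⟩
        have : ((MulAut.conj (⟨mk [x], γ⟩ : FreeGroup E ⋊[act Γ E] Γ)⁻¹).toMonoidHom g).left =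
            act Γ E γ⁻¹ ((mk [x])⁻¹ * g.left * mk [lt g.right x]) := by
          simp [← show act Γ E g.right (mk [x]) = mk [lt g.right x] from rfl]
        rw [this, norm_act]
        rcases c : g.left.toWord with _ | ⟨y, L'⟩
        · rw [toWord_eq_nil_iff] at c
          have := f _ (mul_mem hg hk) (lt g.right x) (L.map (lt g.right)) (by
            rw [SemidirectProduct.mul_left, c, one_mul, toWord_act, e]; rfl)
          rw [c, ← this, mul_one, inv_mul_cancel, FreeGroup.norm_one]
          exact d.zero_le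
        obtain rfl := f g hg y L' c
        have c' : g.left = mk [x] * mk L' := by rw [mul_mk, ← mk_toWord (x := g.left), c]; rfl
        have l := h g hg
        rw [FreeGroup.norm, c, List.length_cons] at l
        have t : (g⁻¹).left.toWord = (invRev (x :: L')).map (lt g.right⁻¹) := by
          rw [SemidirectProduct.inv_left, toWord_act, toWord_inv, c]
        rw [c', inv_mul_cancel_left]
        rcases List.eq_nil_or_concat L' with rfl | ⟨L'', y, rfl⟩
        · have := congrArg Prod.snd (f _ (inv_mem hg) _ _ t)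
          simp [lt] at this
        · rw [List.concat_eq_append, ← List.cons_append, invRev_append] at t
          have := f _ (inv_mem hg) _ _ t
          have e : mk [lt g.right x] = (mk [y])⁻¹ := by rw [this]; simp [lt, inv_mk, invRev]
          rw [List.concat_eq_append, ← mul_mk, e, mul_inv_cancel_right]
          refine norm_mk_le.trans ?_
          simp at l
          omega)
    exact ⟨g * _, mul_mem hg (inv_mem m), fun k hk => by
      simpa [mul_assoc] using a _ ⟨k, hk, rfl⟩⟩

theorem GG.fin (ht : ∀ a : V, ∃ γ : Γ, γ • v = a) (H : Subgroup (GG hs v)) [Finite H] :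
    ∃ g : GG hs v, ∀ h ∈ H, (g * h * g⁻¹).1.left = 1 := by
  obtain ⟨d, hd⟩ := (Set.finite_range fun h : H => h.1.1.left.norm).bddAbove
  obtain ⟨g, hg, a⟩ := GG.conj ht d (H.map (GG hs v).subtype) (Subgroup.map_subtype_le _) (by
    rintro _ ⟨h, hh, rfl⟩
    exact hd ⟨⟨h, hh⟩, rfl⟩)
  exact ⟨⟨g, hg⟩, fun h hh => a _ ⟨h, hh, rfl⟩⟩

theorem Path.ind {R : V → Prop} {L : List (E × Bool)} {a b : V} (h : Path s a L b) (ha : R a)
    (hR : ∀ x ∈ L, R (s x) → R (s (iv x))) : R b := by
  induction L generalizing a with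
  | nil => exact (show a = b from h) ▸ ha
  | cons x L ih =>
    exact ih h.2 (hR x List.mem_cons_self (h.1 ▸ ha)) fun y hy => hR y (List.mem_cons_of_mem _ hy)

theorem fix_of_conj {g : FreeGroup E ⋊[act Γ E] Γ} {γ δ : Γ}
    (e : g⁻¹ * .inr γ * g = .inr δ) : g.right⁻¹ * γ * g.right = δ ∧ ∀ x ∈ g.left.toWord, γ • x.1 = x.1 := by
  refine ⟨by simpa using congrArg SemidirectProduct.right e, fun x hx => ?_⟩
  have e1 : act Γ E γ g.left = g.left := by
    have := congrArg SemidirectProduct.left ((mul_assoc _ _ _).symm.trans e |> inv_mul_eq_iff_eq_mul.1)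
    simpa using this
  have e2 := toWord_act γ g.left
  rw [e1] at e2
  have := List.map_inj_left.1 ((List.map_id _).trans e2) x hx
  exact (congrArg Prod.fst this).symm

end

end H15.Fr
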