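import Cfsg.Agent.H15.Fr1
import Cfsg.Prelude.Def_FusionSystem

/-! Realizing a fusion system by a virtually free group. -/

set_option autoImplicit false

namespace H15.Fr

open _root_.Cfsg FreeGroup

universe u

theorem exists_free {A S : Type*} [Group A] [Group S] {f : A →* S} (hf : Function.Injective f) :
    ∃ e : A × (S ⧸ f.range) ≃ S, ∀ x y q, e (x * y, q) = f x * e (y, q) := by
  refine ⟨Equiv.ofBijective (fun z => f z.1 * z.2.out⁻¹) ⟨?_, fun s => ?_⟩, fun x y q => by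
    show f (x * y) * _ = f x * (f y * _)
    rw [_root_.map_mul, mul_assoc]⟩
  · rintro ⟨y, q⟩ ⟨y', q'⟩ e
    simp only at e
    obtain rfl : q = q' := by
      rw [← q.out_eq', ← q'.out_eq', QuotientGroup.eq]
      exact ⟨y⁻¹ * y', by rw [_root_.map_mul, _root_.map_inv, inv_mul_eq_iff_eq_mul, ← mul_assoc, e]; simp⟩
    rw [hf (mul_right_cancel e)]
  · obtain ⟨⟨_, h, rfl⟩, e⟩ := QuotientGroup.mk_out_eq_mul f.range s⁻¹
    exact ⟨(h, (s⁻¹ : S)), by simp [e]⟩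

theorem exists_tau {A S : Type*} [Group A] [Group S] [Finite S] {f g : A →* S}
    (hf : Function.Injective f) (hg : Function.Injective g) : ∃ τ : Equiv.Perm S, ∀ x,
      τ * MulAction.toPermHom S S (f x) * τ⁻¹ = MulAction.toPermHom S S (g x) := by
  obtain ⟨e, he⟩ := exists_free hf
  obtain ⟨e', he'⟩ := exists_free hg
  haveI := Finite.of_injective f hf
  obtain ⟨σ⟩ : Nonempty (S ⧸ f.range ≃ S ⧸ g.range) := Finite.card_eq.1 (by
    have a := Nat.card_congr (e.trans e'.symm)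
    rw [Nat.card_prod, Nat.card_prod] at a
    exact Nat.eq_of_mul_eq_mul_left Nat.card_pos a)
  refine ⟨e.symm.trans (((Equiv.refl A).prodCongr σ).trans e'), fun x => ?_⟩
  rw [mul_inv_eq_iff_eq_mul]
  ext s
  obtain ⟨⟨y, q⟩, rfl⟩ := e.surjective s
  simp [← he, ← he']

theorem free {E Γ : Type u} [Group Γ] {φ : Γ →* MulAut (FreeGroup E)} (G : Subgroup (FreeGroup E ⋊[φ] Γ)) :
    IsFreeGroup (SemidirectProduct.rightHom.comp G.subtype).ker := by
  refine IsFreeGroup.ofMulEquiv (G := G.comap SemidirectProduct.inl) (MulEquiv.ofBijective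
    (MonoidHom.codRestrict (SemidirectProduct.inl.subgroupComap G) _ fun x => rfl)
    ⟨fun a b e => Subtype.ext (SemidirectProduct.inl_injective
      (congrArg (fun z => z.1.1) e)), fun ⟨⟨g, hg⟩, e⟩ => ?_⟩)
  have : SemidirectProduct.inl g.left = g := SemidirectProduct.ext rfl (Eq.symm e)
  exact ⟨⟨g.left, show SemidirectProduct.inl g.left ∈ G from this.symm ▸ hg⟩,
    Subtype.ext (Subtype.ext this)⟩

variable {Ω : Type u} [Group Ω] {S : Subgroup Ω}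

/-- the regular representation -/
abbrev lam (S : Subgroup Ω) : S →* Equiv.Perm S := MulAction.toPermHom S S

theorem lam_inj : Function.Injective (lam S) := MulAction.toPerm_injective

/-- conjugation by `β` induces a map of the system on `P` -/
def R (F : FusionSystem S) {P : Subgroup Ω} (hP : P ≤ S) (β : Equiv.Perm S) : Prop :=
  ∃ ψ, ∃ h : ψ ∈ F.Hom P, ∀ x : P,
    β⁻¹ * lam S ⟨x, hP x.2⟩ * β = lam S ⟨ψ x, (F.le_of_mem h).2 x⟩

variable {F : FusionSystem S} {P Q : Subgroup Ω} {hP : P ≤ S} {hQ : Q ≤ S} {β γ : Equiv.Perm S}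

theorem R.comp (h : R F hP β) (h' : R F hQ γ)
    (e : ∀ x : P, ∃ y : Q, β⁻¹ * lam S ⟨x, hP x.2⟩ * β = lam S ⟨y, hQ y.2⟩) : R F hP (β * γ) := by
  obtain ⟨ψ, h, a⟩ := h
  obtain ⟨φ, h', b⟩ := h'
  have m : ∀ x, ψ x ∈ Q := fun x => by
    obtain ⟨y, hy⟩ := e x
    rw [a] at hy
    exact (show ψ x = y from congrArg Subtype.val (lam_inj hy)) ▸ y.2
  refine ⟨_, F.comp_mem h h' m, fun x => ?_⟩
  refine Eq.trans ?_ (b ⟨ψ x, m x⟩)
  rw [← a]
  group

theorem R.lam (F : FusionSystem S) (hP : P ≤ S) (s : S) : R F hP (lam S s) :=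
  ⟨_, F.conj_mem hP (S.inv_mem s.2), fun x => by
    rw [← _root_.map_inv, ← _root_.map_mul, ← _root_.map_mul]
    congr 1
    ext
    simp [conjHom]⟩

theorem R.of_eq (h : R F hP β) (e : (β : _ ⧸ (Fr.lam S).range) = γ) : R F hP γ := by
  obtain ⟨s, hs⟩ := QuotientGroup.eq.1 e
  have := h.comp (R.lam F le_rfl s) fun x => let ⟨_, k, a⟩ := h; ⟨⟨_, (F.le_of_mem k).2 x⟩, a x⟩
  rwa [hs, mul_inv_cancel_left] at this

theorem R.step {φ : Q →* Ω} (hφ : φ ∈ F.Hom Q) {τ : Equiv.Perm S}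
    (hτ : ∀ y : Q, τ * Fr.lam S ⟨y, hQ y.2⟩ * τ⁻¹ = Fr.lam S ⟨φ y, (F.le_of_mem hφ).2 y⟩)
    (e : ∀ x : P, ∃ y : Q, β⁻¹ * Fr.lam S ⟨x, hP x.2⟩ * β = Fr.lam S ⟨y, hQ y.2⟩) :
    R F hP β ↔ R F hP (β * τ⁻¹) := by
  refine ⟨fun h => h.comp ⟨φ, hφ, by simpa using hτ⟩ e, fun h => ?_⟩
  obtain ⟨ψ, hψ, a⟩ := F.inv_mem hφ
  have := h.comp (hQ := (F.le_of_mem hψ).1) (γ := τ) ⟨ψ, hψ, by
    rintro ⟨_, y, rfl⟩
    rw [← hτ]
    simp only [a]
    group⟩ fun x => by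
      obtain ⟨y, hy⟩ := e x
      exact ⟨⟨_, y, rfl⟩, by rw [← hτ, ← hy]; group⟩
  simpa using this

theorem main [Finite S] (F : FusionSystem S) : ∃ (G : Type u) (_ : Group G) (ι : S →* G),
    F.IsRealizedBy ι ∧ (∀ H : Subgroup G, Finite H → ∃ g : G, ∀ h ∈ H, g * h * g⁻¹ ∈ ι.range) ∧
      ∃ N : Subgroup G, N.Normal ∧ IsFreeGroup N ∧ N.index ∣ (Nat.card S).factorial := by
  classical
  let M := Σ Q : Subgroup Ω, F.Hom Q
  let i : ∀ m : M, m.1 →* S := fun m => Subgroup.inclusion (F.le_of_mem m.2.2).1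
  choose τ hτ using fun m : M => exists_tau (f := i m)
    (g := m.2.1.codRestrict S (F.le_of_mem m.2.2).2) (Subgroup.inclusion_injective _)
    fun a b e => F.injective_of_mem m.2.2 (congrArg Subtype.val e)
  let Γ := Equiv.Perm S
  let E := Σ m : M, Γ ⧸ ((lam S).comp (i m)).range
  let V := Γ ⧸ (lam S).range
  let s : E × Bool → V := fun x => Quotient.liftOn' x.1.2
    (fun γ => ((γ * if x.2 then 1 else (τ x.1.1)⁻¹ : Γ) : V)) fun a b e => by
      obtain ⟨y, hy⟩ := QuotientGroup.leftRel_apply.1 e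
      rw [QuotientGroup.eq]
      split_ifs
      · exact ⟨i _ y, by simpa using hy⟩
      · exact ⟨_, (hτ _ y).symm.trans (by rw [show MulAction.toPermHom S S _ = _ from hy]; group)⟩
  have hs : ∀ (γ : Γ) x, s (lt γ x) = γ • s x := by
    rintro γ ⟨⟨m, ⟨c⟩⟩, b⟩
    exact congrArg (fun z : Γ => (z : V)) (mul_assoc γ c _)
  let v : V := (1 : Γ)
  have hv : ∀ γ : Γ, γ • v = γ := fun γ => congrArg (fun z : Γ => (z : V)) (mul_one γ)
  have hv' : ∀ γ : Γ, γ • v = v ↔ γ ∈ (lam S).range := fun γ => by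
    rw [hv, eq_comm, QuotientGroup.eq, inv_one, one_mul]
  let ι : S →* GG hs v := (SemidirectProduct.inr.comp (lam S)).codRestrict _ fun x =>
    ⟨[], rfl, ((hv' _).2 ⟨x, rfl⟩).symm⟩
  refine ⟨GG hs v, inferInstance, ι, ⟨fun a b e => lam_inj (SemidirectProduct.inr_injective
    (congrArg Subtype.val e)), fun P hP φ hφ => ⟨fun h => ?_, fun ⟨g, hg⟩ => ?_⟩⟩, fun H hH => ?_,
    (SemidirectProduct.rightHom.comp (GG hs v).subtype).ker, inferInstance, ?_, ?_⟩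
  · let m : M := ⟨P, φ, h⟩
    let e : E := ⟨m, (1 : Γ)⟩
    have mem : (⟨mk [(e, true)], (τ m)⁻¹⟩ : FreeGroup E ⋊[act Γ E] Γ) ∈ GG hs v :=
      ⟨_, rfl, congrArg (fun z : Γ => (z : V)) (one_mul _).symm, by
        rw [hv]; exact congrArg (fun z : Γ => (z : V)) (one_mul _)⟩
    refine ⟨(⟨_, mem⟩ : GG hs v)⁻¹, fun x => ?_⟩
    rw [inv_inv, mul_assoc, eq_inv_mul_iff_mul_eq]
    have fx : (lam S ⟨x, hP x.2⟩ : Γ) • e = e := congrArg (Sigma.mk m)
      (QuotientGroup.eq.2 ⟨x⁻¹, (_root_.map_inv _ _).trans (by rw [mul_one]; exact congrArg _ (mul_one _).symm)⟩)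
    refine Subtype.ext (SemidirectProduct.ext ?_ ?_)
    · show _ * act Γ E _ 1 = 1 * act Γ E (lam S ⟨x, hP x.2⟩) (mk [(e, true)])
      rw [_root_.map_one, mul_one, one_mul, act_mk]
      exact congrArg (fun z => mk [(z, true)]) fx.symm
    · exact inv_mul_eq_iff_eq_mul.2 ((hτ m x).symm.trans (mul_assoc _ _ _))
  · have f := fun x : P => fix_of_conj (g := (g⁻¹).1) (γ := lam S ⟨x, hP x.2⟩)
      (δ := lam S ⟨φ x, hφ x⟩) (by rw [Subgroup.coe_inv, inv_inv]; exact (congrArg Subtype.val (hg x)).symm)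
    obtain ⟨β, h1, h2⟩ : ∃ β : Γ, R F hP β ∧ (β : V) = _ := (GG.path (g⁻¹).2).ind
      (R := fun a => ∃ β : Γ, R F hP β ∧ (β : V) = a) ⟨1, (lam S).map_one ▸ R.lam F hP 1, rfl⟩ (by
        rintro ⟨⟨m, ⟨c⟩⟩, b⟩ hx ⟨β, h1, h2⟩
        have st := R.step (hP := hP) (hQ := (F.le_of_mem m.2.2).1) (β := c) m.2.2 (hτ m) fun x => by
          obtain ⟨y, hy⟩ := QuotientGroup.eq.1 (eq_of_heq (Sigma.mk.inj ((f x).2 _ hx)).2).symm
          exact ⟨y, (mul_assoc _ _ _).trans hy.symm⟩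
        cases b
        · exact ⟨c * 1, (mul_one c).symm ▸ st.2 (h1.of_eq h2), rfl⟩
        · exact ⟨_, st.1 (mul_one c ▸ h1.of_eq (γ := c * 1) h2), rfl⟩)
    obtain ⟨ψ, hψ, a⟩ := h1.of_eq (h2.trans (hv _))
    rwa [show φ = ψ from MonoidHom.ext fun x =>
      congrArg Subtype.val (lam_inj ((f x).1.symm.trans (a x)))]
  · obtain ⟨g, a⟩ := GG.fin (hs := hs) (v := v) (fun a =>
      let ⟨γ, e⟩ := QuotientGroup.mk_surjective a; ⟨γ, (hv γ).trans e⟩) H
    refine ⟨g, fun h hh => ?_⟩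
    have b := a h hh
    generalize g * h * g⁻¹ = k at b
    obtain ⟨y, hy⟩ := (hv' _).1 (GG.fix k.2 b)
    exact ⟨y, Subtype.ext (SemidirectProduct.ext b.symm hy)⟩
  · exact free _
  · rw [Subgroup.index_ker, ← Nat.card_perm]
    exact Subgroup.card_subgroup_dvd_card _

end H15.Fr
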