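import Cfsg.Agent.H4.Dk5

/-!
Hall numbers: the counterexamples `L₂(q)`.
-/

set_option autoImplicit false
set_option linter.unusedSectionVars false

namespace H15.Hn

open Subgroup
open scoped MatrixGroups

theorem psl_cases {F : Type} [Field F] [Fintype F] (p : ℕ) [Fact p.Prime] [CharP F p]
    (ho : Odd (Fintype.card F)) (H : Subgroup PSL(2, F)) :
    Nat.card H ∣ Fintype.card F * (Fintype.card F - 1) ∨ Nat.card H ∣ Fintype.card F + 1 ∨
      Nat.card H = 12 ∨ Nat.card H = 24 ∨ Nat.card H = 60 ∨ p ∣ Nat.card H := by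
  have h1 := H4.map_psl_le H
  rw [← H4.card_map_psl]
  have a5 : Nat.card (alternatingGroup (Fin 5)) = 60 := by
    have := two_mul_nat_card_alternatingGroup (α := Fin 5)
    rw [Nat.card_eq_fintype_card (α := Equiv.Perm _), Fintype.card_perm, Fintype.card_fin] at this
    simp only [Nat.factorial] at this
    omega
  rcases H4.dickson_pgl p (H.map H4.psl2pgl) with ⟨x, hx⟩ | ⟨g, hg, h2⟩ |
    ⟨-, ⟨⟨e⟩⟩ | ⟨⟨e⟩⟩ | ⟨⟨e⟩⟩⟩ | ⟨-, ⟨e⟩⟩ | ⟨E, P, hE, h⟩
  · exact Or.inl (H4.card_stab x ▸ card_dvd_of_le hx)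
  · have h3 := card_dvd_of_le (le_inf h2 h1)
    have h4 := H4.card_pT_pL hg
    have h5 : Nat.gcd 2 (Fintype.card F - 1) = 2 := by
      refine Nat.gcd_eq_left ?_
      obtain ⟨k, hk⟩ := ho
      exact ⟨k, by omega⟩
    rw [h5] at h4
    rw [H4.card_pN_pL hg, h4] at h3
    rcases H4.card_pT hg with h | h <;> rw [h] at h3
    exacts [Or.inr (Or.inl h3), Or.inl (h3.mul_left _)]
  · refine Or.inr (Or.inr (Or.inl ?_))
    have := two_mul_nat_card_alternatingGroup (α := Fin 4)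
    rw [Nat.card_eq_fintype_card (α := Equiv.Perm _), Fintype.card_perm, Fintype.card_fin] at this
    simp only [Nat.factorial] at this
    rw [Nat.card_congr e.toEquiv]
    omega
  · refine Or.inr (Or.inr (Or.inr (Or.inl ?_)))
    rw [Nat.card_congr e.toEquiv, Nat.card_eq_fintype_card, Fintype.card_perm, Fintype.card_fin]
    rfl
  · exact Or.inr (Or.inr (Or.inr (Or.inr (Or.inl ((Nat.card_congr e.toEquiv).trans a5)))))
  · exact Or.inr (Or.inr (Or.inr (Or.inr (Or.inl ((Nat.card_congr e.toEquiv).trans a5)))))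
  · refine Or.inr (Or.inr (Or.inr (Or.inr (Or.inr ?_))))
    have h2 := H4.char_dvd_card_pslS p E
    rcases h with h | h <;> rw [h, card_map_of_injective (MulAut.conj P).injective]
    · exact h2
    · exact h2.trans (card_dvd_of_le (H4.pslS_le_pglS E))

/-- a prime `q` with `m₁ ∥ (q - 1) / 2` and `m₂ ∥ q + 1` -/
theorem exists_prime {a b : ℕ} (hab : a.Coprime b) (ha : Odd a) (ha1 : 1 < a) (hb1 : 1 < b)
    (hb : Odd b ∨ 4 ∣ b) : ∃ q u v : ℕ, q.Prime ∧ a * b < q ∧ q = 2 * a * u + 1 ∧ q + 1 = b * v ∧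
      (a * b).Coprime (q * u * v) := by
  have c1 : (a ^ 2).Coprime (b ^ 2) := hab.pow 2 2
  obtain ⟨c, h1, h2⟩ := Nat.chineseRemainder c1 (1 + 2 * a) (b - 1)
  have c2 : c.Coprime (a ^ 2 * b ^ 2) := by
    refine Nat.Coprime.mul_right (Nat.Coprime.pow_right 2 ?_) (Nat.Coprime.pow_right 2 ?_)
    · have := h1.of_dvd (dvd_pow_self a two_ne_zero)
      rw [Nat.Coprime, this.gcd_eq]
      simp
    · have := h2.of_dvd (dvd_pow_self b two_ne_zero)
      rw [Nat.Coprime, this.gcd_eq]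
      exact (Nat.coprime_self_sub_left (by omega)).2 (by simp)
  obtain ⟨q, q1, hq, q2⟩ := Nat.forall_exists_prime_gt_and_modEq (a * b + 2 * a + b + 2)
    (q := a ^ 2 * b ^ 2) (by positivity) c2
  have k1 := (q2.of_mul_right _).trans h1
  have k2 := (q2.of_mul_left _).trans h2
  obtain ⟨t, ht⟩ := (Nat.modEq_iff_dvd' (by omega)).1 k1.symm
  obtain ⟨s, hs⟩ := (Nat.modEq_iff_dvd' (by omega)).1 k2.symm
  have qo : Odd q := hq.odd_of_ne_two (by omega)
  obtain ⟨t, rfl⟩ : Even t := by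
    have : Even (a ^ 2 * t) := by
      rw [← ht]; obtain ⟨k, hk⟩ := qo; exact ⟨k - a, by omega⟩
    exact (Nat.even_mul.1 this).resolve_left (Nat.not_even_iff_odd.2 ha.pow)
  have e1 : q = 2 * a * (1 + a * t) + 1 := by
    have : q = 1 + 2 * a + a ^ 2 * (t + t) := by omega
    rw [this]; ring
  have e2 : q + 1 = b * (1 + b * s) := by
    have : q + 1 = b + b ^ 2 * s := by omega
    rw [this]; ring
  refine ⟨q, _, _, hq, by omega, e1, e2, ?_⟩
  have k3 : ∀ l : ℕ, l.Prime → l ∣ q - 1 → l ∣ q + 1 → l = 2 := fun l hl j1 j2 => by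
    have := Nat.dvd_sub j2 j1
    rw [show q + 1 - (q - 1) = 2 by omega] at this
    exact (Nat.prime_dvd_prime_iff_eq hl Nat.prime_two).1 this
  refine Nat.Coprime.mul_right (Nat.Coprime.mul_right ?_ ?_) ?_
  · exact (Nat.coprime_of_lt_prime (by positivity) (by omega) hq).symm
  · refine Nat.Coprime.mul_left (by simp) (Nat.coprime_of_dvd fun l hl j1 j2 => ?_)
    obtain rfl := k3 l hl (by rw [e1]; simpa using j2.mul_left _) (e2 ▸ j1.mul_right _)
    rcases hb with hb | ⟨k, rfl⟩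
    · exact absurd j1 hb.not_two_dvd_nat
    · obtain ⟨w, hw⟩ := j2
      rw [hw] at e1
      have : q + 1 = 4 * (k * (1 + 4 * k * s)) := by rw [e2]; ring
      have : q = 4 * (a * w) + 1 := by rw [e1]; ring
      omega
  · refine Nat.Coprime.mul_left (Nat.coprime_of_dvd fun l hl j1 j2 => ?_) (by simp)
    obtain rfl := k3 l hl (by rw [e1]; simpa using (j1.mul_left 2).mul_right _)
      (e2 ▸ j2.mul_left _)
    exact absurd j1 ha.not_two_dvd_nat

theorem counter {a b : ℕ} (hab : a.Coprime b) (ha : Odd a) (ha1 : 1 < a) (hb1 : 1 < b)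
    (hb : Odd b ∨ 4 ∣ b) (h1 : a * b ≠ 12) (h2 : a * b ≠ 24) (h3 : a * b ≠ 60) :
    ∃ (G : Type) (_ : Group G) (_ : Finite G), a * b ∣ Nat.card G ∧
      (a * b).Coprime (Nat.card G / (a * b)) ∧ ∀ H : Subgroup G, Nat.card H ≠ a * b := by
  obtain ⟨q, u, v, hq, q1, e1, e2, hc⟩ := exists_prime hab ha ha1 hb1 hb
  haveI := Fact.mk hq
  have hF : Fintype.card (ZMod q) = q := ZMod.card q
  have h4 := H4.card_psl (F := ZMod q)
  have k1 : q - 1 = 2 * a * u := by omega
  have k2 : q ^ 2 - 1 = 2 * a * u * (b * v) := by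
    rw [← k1, ← e2, mul_comm, ← Nat.sq_sub_sq]
  rw [hF, k2, k1, Nat.gcd_eq_left ⟨a * u, by ring⟩] at h4
  have h5 : Nat.card PSL(2, ZMod q) = a * b * (q * u * v) :=
    Nat.eq_of_mul_eq_mul_left two_pos (h4.trans (by ring))
  refine ⟨PSL(2, ZMod q), inferInstance, inferInstance, ⟨_, h5⟩, ?_, fun H hH => ?_⟩
  · rwa [h5, Nat.mul_div_cancel_left _ (by positivity)]
  have k3 : ∀ l : ℕ, l ∣ q - 1 → l ∣ q + 1 → l ∣ 2 := fun l j1 j2 => by
    have := Nat.dvd_sub j2 j1
    rwa [show q + 1 - (q - 1) = 2 by omega] at this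
  have := psl_cases q (by rw [hF]; exact ⟨a * u, by rw [e1]; ring⟩) H
  rw [hF, hH] at this
  rcases this with k | k | k | k | k | k
  · have k4 := ((Nat.coprime_of_lt_prime (by positivity) q1 hq).symm).dvd_of_dvd_mul_left k
    have k5 := k3 b ((Dvd.intro_left _ rfl).trans k4) ⟨_, e2⟩
    have := Nat.le_of_dvd two_pos k5
    obtain rfl : b = 2 := by omega
    rcases hb with hb | hb <;> revert hb <;> decide
  · have k5 := k3 a ⟨2 * u, by rw [k1]; ring⟩ ((Dvd.intro _ rfl).trans k)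
    have := Nat.le_of_dvd two_pos k5
    obtain rfl : a = 2 := by omega
    revert ha; decide
  exacts [h1 k, h2 k, h3 k, absurd (Nat.le_of_dvd (by positivity) k) (by omega)]

/-- the factorization used for the counterexample -/
theorem split {m : ℕ} (hm : 2 ≤ m) (h1 : ¬ IsPrimePow m) (h2 : m % 4 ≠ 2) :
    ∃ a b : ℕ, m = a * b ∧ a.Coprime b ∧ Odd a ∧ 1 < a ∧ 1 < b ∧ (Odd b ∨ 4 ∣ b) := by
  obtain ⟨p, hp, hd⟩ : ∃ p : ℕ, p.Prime ∧ p ∣ m ∧ (Odd m ∨ p = 2) := by
    rcases Nat.even_or_odd m with k | k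
    · exact ⟨2, Nat.prime_two, k.two_dvd, Or.inr rfl⟩
    · exact ⟨_, Nat.minFac_prime (by omega), Nat.minFac_dvd m, Or.inl k⟩
  obtain ⟨e, a, k1, rfl⟩ := Nat.exists_eq_pow_mul_and_not_dvd (n := m) (by omega) p hp.ne_one
  have e0 : e ≠ 0 := by rintro rfl; exact k1 (by simpa using hd.1)
  have a0 : a ≠ 0 := by rintro rfl; simp at hm
  have a1 : a ≠ 1 := by
    rintro rfl
    exact h1 (by simpa using hp.isPrimePow.pow e0)
  refine ⟨a, p ^ e, mul_comm _ _, ((hp.coprime_iff_not_dvd.2 k1).symm).pow_right e, ?_, by omega,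
    Nat.one_lt_pow e0 hp.one_lt, ?_⟩
  · rcases hd.2 with k | rfl
    exacts [(Nat.odd_mul.1 k).2, Nat.odd_iff.2 (by omega)]
  · rcases hd.2 with k | rfl
    · exact Or.inl (Nat.odd_mul.1 k).1
    · refine Or.inr ?_
      obtain rfl | k := (show e = 1 ∨ 2 ≤ e by omega)
      · omega
      · exact pow_dvd_pow 2 k

end H15.Hn
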