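import Cfsg.Agent.H17.Cs
import Cfsg.Agent.H26.CS1
import Cfsg.Agent.H13.Core

/-! Class sizes of `p`-singular elements. -/

set_option autoImplicit false
set_option linter.unusedSectionVars false

open Subgroup H16

namespace H15.Ps

variable {G : Type*} [Group G] [Finite G] {p : ℕ} [hp : Fact p.Prime] {a b : G}

theorem syl_conj {H : Subgroup G} {P S : Sylow p G} (h1 : (P : Subgroup G) ≤ H)
    (h2 : (S : Subgroup G) ≤ H) : ∃ c ∈ H, c • P = S := by
  obtain ⟨c, hh⟩ := MulAction.exists_smul_eq H (P.subtype h1) (S.subtype h2)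
  rw [Sylow.smul_subtype] at hh
  exact ⟨c, c.2, Sylow.subtype_injective hh⟩

theorem syl_in {H : Subgroup G} {P : Sylow p G} (h1 : (P : Subgroup G) ≤ H) {u : G} (hu : u ∈ H)
    {k : ℕ} (h : u ^ p ^ k = 1) : ∃ S : Sylow p G, (S : Subgroup G) ≤ H ∧ u ∈ (S : Subgroup G) := by
  obtain ⟨Q, hQ⟩ := (H8.isPGroup_zpowers_of_pow (x := (⟨u, hu⟩ : H)) (k := k)
    (Subtype.ext h)).exists_le_sylow
  obtain ⟨c, hh⟩ := MulAction.exists_smul_eq H (P.subtype h1) Q
  rw [Sylow.smul_subtype] at hh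
  refine ⟨c • P, ?_, ?_⟩
  · rintro _ ⟨x, hx, rfl⟩
    exact H.mul_mem (H.mul_mem c.2 (h1 hx)) (H.inv_mem c.2)
  · have := hQ (mem_zpowers _)
    rw [← hh] at this
    exact this

theorem dvd_of_le (ha : a ^ p = 1) (hz : a ∉ center G) (hc : C1[a].index.Coprime C1[b].index)
    (hle : C1[a * b].index ≤ C1[b].index) : p ∣ C1[b].index := by
  obtain ⟨g, hg⟩ : ∃ g, g * a ≠ a * g := by simpa [mem_center_iff] using hz
  have m := H17.Cs.mem_St hc hle g
  have l := mem_cent1.1 (H17.Cs.le_c1 (hc.symm.coprime_dvd_left (H17.Cs.St_dvd b)) m)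
  have c : Commute a⁻¹ (g * a * g⁻¹) := by
    have : Commute a (a⁻¹ * (g * a * g⁻¹)) := l.symm
    simpa using ((Commute.refl a).mul_right this).inv_left
  have o : orderOf (a⁻¹ * (g * a * g⁻¹)) = p := orderOf_eq_prime
    (by rw [c.mul_pow, conj_pow, inv_pow, ha]; simp) fun e => hg (by
      rw [inv_mul_eq_one] at e
      exact mul_inv_eq_iff_eq_mul.1 e.symm)
  exact (o ▸ (H17.Cs.St b).orderOf_dvd_natCard m).trans (H17.Cs.St_dvd b)

theorem no {P : Sylow p G} (hP : (P : Subgroup G) ≤ C1[b]) (hb : orderOf b = p) (hz : b ∉ center G)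
    (ha : a ∈ (P : Subgroup G)) (pa : p ∣ C1[a].index)
    (H : ∀ z : G, p ∣ orderOf z → p ∣ C1[z].index → C1[z].index.Coprime C1[b].index) : False := by
  have b1 : C1[b].index ≠ 1 := fun e => hz (H8.index_centralizer_eq_one_iff.1 e)
  have s1 : ∀ y ∈ C1[b], ∃ S : Sylow p G, (S : Subgroup G) ≤ C1[b] ∧ ∃ u ∈ (S : Subgroup G), ∃ v,
      y = u * v ∧ (S : Subgroup G) ≤ C1[v] := fun y hy => by
    obtain ⟨α, β, e, ⟨k, hk⟩, hc⟩ := H13.exists_pPart (p := p) (orderOf_pos y).ne'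
    have c : Commute b y := (mem_cent1.1 hy).symm
    have hc' : (orderOf b).Coprime (orderOf (y ^ β)) := hb ▸ hc.symm
    have e1 := H8.centralizer_mul_of_coprime (c.pow_right β) hc'
    obtain ⟨S, hS⟩ := H8.exists_sylow_le_centralizer (p := p) (x := b * y ^ β) fun q => b1
      (Nat.eq_one_of_dvd_coprimes (H _ (hb ▸ orderOf_dvd_of_mem_zpowers
        (H8.mem_zpowers_mul_of_coprime (c.pow_right β) hc')) q) (index_dvd_of_le (e1 ▸ inf_le_left))
        dvd_rfl)
    rw [e1] at hS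
    obtain ⟨T, h1, h2⟩ := syl_in hS (u := y ^ α) ⟨pow_mem hy _,
      mem_cent1.2 (Commute.pow_pow_self y α β).eq⟩ hk
    exact ⟨T, h1.trans inf_le_left, _, h2, _, e, h1.trans inf_le_right⟩
  have s2 : ∀ S : Sylow p G, (S : Subgroup G) ≤ C1[b] → S = P := fun S hS => by
    obtain ⟨c, hc, rfl⟩ := syl_conj hP hS
    have := H8.eq_top_of_forall_conj_mem (H := (normalizer ((P : Subgroup G) : Set G)).subgroupOf C1[b])
      fun y => by
        obtain ⟨T, h1, u, hu, v, e, h2⟩ := s1 y y.2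
        obtain ⟨d, hd, rfl⟩ := syl_conj hP h1
        refine ⟨⟨d, hd⟩, Sylow.smul_eq_iff_mem_normalizer.1 ?_⟩
        have : (y : G) • d • P = d • P := Sylow.smul_eq_iff_mem_normalizer.2 (e ▸ mul_mem
          (le_normalizer hu) (centralizer_le_normalizer _ fun w hw => mem_cent1.1 (h2 hw)))
        show (d⁻¹ * y * d) • P = P
        rw [mul_smul, mul_smul, this, inv_smul_smul]
    exact Sylow.smul_eq_iff_mem_normalizer.2 (mem_subgroupOf.1 (this.ge (mem_top (⟨c, hc⟩ : C1[b]))))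
  have s0 : ∀ x ∈ (P : Subgroup G), p ∣ C1[x].index → C1[x].index.Coprime C1[b].index :=
    fun x hx px => H x (by
      obtain ⟨k, hk⟩ := H8.exists_orderOf_eq_of_mem P.isPGroup' hx
      rw [hk]
      refine dvd_pow_self p ?_
      rintro rfl
      rw [orderOf_eq_one_iff.1 hk, H8.index_centralizer_eq_one_iff.2 (one_mem _)] at px
      exact hp.out.not_dvd_one px) px
  have s3 : ∀ x ∈ (P : Subgroup G), p ∣ C1[x].index → ∀ g : G, ∃ u ∈ (P : Subgroup G),
      g * x * g⁻¹ = u * x * u⁻¹ := fun x hx px g => by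
    obtain ⟨d, hd, e, he, rfl⟩ := H17.Cs.prod (s0 x hx px).symm g
    obtain ⟨S, h1, u, hu, v, rfl, h2⟩ := s1 d hd
    obtain rfl := s2 S h1
    refine ⟨u, hu, ?_⟩
    calc _ = u * v * (e * x) * e⁻¹ * v⁻¹ * u⁻¹ := by group
      _ = u * (v * x) * v⁻¹ * u⁻¹ := by rw [mem_cent1.1 he]; group
      _ = _ := by rw [← mem_cent1.1 (h2 hx)]; group
  have s4 : ∀ x ∈ (P : Subgroup G), p ∣ C1[x].index → x ∈ (P : Subgroup G).normalCore :=
    fun x hx px g => by
      obtain ⟨u, hu, e⟩ := s3 x hx px g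
      exact e ▸ mul_mem (mul_mem hu hx) (inv_mem hu)
  have s5 : ∀ x : G, ¬ p ∣ C1[x].index → (P : Subgroup G).normalCore ≤ C1[x] := fun x px => by
    obtain ⟨S, hS⟩ := H8.exists_sylow_le_centralizer px
    exact ((P.isPGroup'.to_le (normalCore_le _)).le_sylow_of_normal S).trans hS
  have na : ¬ (P : Subgroup G) ≤ C1[a] := fun e => H8.not_dvd_index_of_sylow_le P e pa
  have s6 : (P : Subgroup G) ≤ (P : Subgroup G).normalCore := by
    by_contra q
    obtain ⟨w, hw, nw⟩ := SetLike.not_le_iff_exists.1 q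
    have f : ∀ w ∈ (P : Subgroup G), w ∉ (P : Subgroup G).normalCore → w ∈ C1[a] := fun w hw nw =>
      cent1_comm.1 (s5 w (fun e => nw (s4 w hw e)) (s4 a ha pa))
    refine na fun u hu => by_contra fun nu => nu ?_
    have := f (u * w) (mul_mem hu hw) fun e => nw
      ((mul_mem_cancel_left (by_contra fun e => nu (f u hu e))).1 e)
    exact (mul_mem_cancel_right (f w hw nw)).1 this
  obtain ⟨q, hq, qb⟩ := Nat.exists_prime_and_dvd b1
  haveI := Fact.mk hq
  obtain ⟨Q⟩ : Nonempty (Sylow q G) := inferInstance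
  set E := C[(Q : Subgroup G)] ⊓ (P : Subgroup G) with hE
  have s7 : ∀ x ∈ (P : Subgroup G), p ∣ C1[x].index → ∃ u ∈ (P : Subgroup G), u * x * u⁻¹ ∈ E :=
    fun x hx px => by
      obtain ⟨t, ht⟩ := H26.CS.exists_conj_comm Q.isPGroup' (g := x) fun e =>
        hq.one_lt.ne' (Nat.eq_one_of_dvd_coprimes (s0 x hx px) e qb)
      obtain ⟨u, hu, e⟩ := s3 x hx px t
      exact ⟨u, hu, fun w hw => e ▸ (ht w hw).eq,
        (P : Subgroup G).mul_mem (mul_mem hu hx) (inv_mem hu)⟩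
  have s8 := H8.eq_top_of_forall_conj_mem (H := (normalizer (E : Set G)).subgroupOf P) fun x => by
    by_cases px : p ∣ C1[(x : G)].index
    · obtain ⟨u, hu, e⟩ := s7 x x.2 px
      exact ⟨⟨u, hu⟩⁻¹, le_normalizer (by simpa [mem_subgroupOf] using e)⟩
    · exact ⟨1, centralizer_le_normalizer _ fun w hw => by
        simpa using mem_cent1.1 (s5 _ px (s6 hw.2))⟩
  have s9 : ∀ x ∈ (P : Subgroup G), p ∣ C1[x].index → x ∈ E := fun x hx px => by
    obtain ⟨u, hu, e⟩ := s7 x hx px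
    exact (mem_normalizer_iff.1 (mem_subgroupOf.1 (s8.ge (mem_top (⟨u, hu⟩ : P)))) x).2 e
  have bP : b ∈ (P : Subgroup G) := H8.mem_sylow_of_mem_normalizer P
    (centralizer_le_normalizer _ fun w hw => mem_cent1.1 (hP hw))
    (H8.isPGroup_zpowers_of_orderOf (k := 1) (by rw [hb, pow_one]))
  have := (mul_mem_cancel_left (s9 a ha pa)).1 (s9 _ (mul_mem ha bP) (by_contra fun e => na fun w hw => by
    have h1 := mem_cent1.1 (s5 _ e (s6 hw))
    rw [mul_assoc, ← mem_cent1.1 (hP hw), ← mul_assoc, ← mul_assoc] at h1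
    exact mem_cent1.2 (mul_right_cancel h1)))
  exact H8.not_dvd_index_of_sylow_le Q (fun w hw => mem_cent1.2 (this.1 w hw)) qb

theorem key0 (ha : orderOf a = p) (hb : orderOf b = p) (za : a ∉ center G) (zb : b ∉ center G)
    (hc : C1[a].index.Coprime C1[b].index) (pb : ¬ p ∣ C1[b].index)
    (H : ∀ z : G, p ∣ orderOf z →
      C1[z].index.Coprime C1[a].index ∨ C1[z].index.Coprime C1[b].index) : False := by
  obtain ⟨P, hP⟩ := H8.exists_sylow_le_centralizer pb
  obtain ⟨S, -, hS⟩ := syl_in (P := P) le_top (mem_top a) (k := 1) (by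
    rw [pow_one, ← ha, pow_orderOf_eq_one])
  obtain ⟨g, -, rfl⟩ := syl_conj (P := S) (S := P) le_top le_top
  have m : g * a * g⁻¹ ∈ ((g • S : Sylow p G) : Subgroup G) := ⟨a, hS, rfl⟩
  rw [← H8.index_centralizer_conj a g] at hc H
  have za' := H26.CS.conj_not_mem za g
  have ha' : (g * a * g⁻¹) ^ p = 1 := by rw [conj_pow, ← ha, pow_orderOf_eq_one]; simp
  have hb' : b ^ p = 1 := by rw [← hb, pow_orderOf_eq_one]
  generalize g * a * g⁻¹ = x at *
  have c : Commute x b := mem_cent1.1 (hP m)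
  have d : C1[x * b].index ∣ C1[x].index * C1[b].index := by
    rw [← H17.Cs.relIdx hc, ← inf_relIndex_right, relIndex_mul_index inf_le_right]
    exact index_dvd_of_le fun w hw => mem_cent1.2
      (Commute.mul_right (mem_cent1.1 hw.1) (mem_cent1.1 hw.2))
  rcases H (x * b) (by
    rw [orderOf_eq_prime (by rw [c.mul_pow, ha', hb', one_mul]) fun e => zb ?_]
    rw [mul_eq_one_iff_eq_inv.1 e, show C1[b⁻¹] = C1[b] from by ext; simp [mem_cent1,
      ← commute_iff_eq], Nat.coprime_self] at hc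
    exact H8.index_centralizer_eq_one_iff.1 hc) with e | e
  · exact pb (dvd_of_le ha' za' hc (Nat.le_of_dvd (H8.index_centralizer_pos _)
      (e.dvd_of_dvd_mul_left d)))
  · have := dvd_of_le hb' zb hc.symm (c.eq ▸ Nat.le_of_dvd (H8.index_centralizer_pos _)
      (e.dvd_of_dvd_mul_right d))
    exact no hP hb zb m this fun z h1 h2 => (H z h1).resolve_left fun e =>
      hp.out.one_lt.ne' (Nat.eq_one_of_dvd_coprimes e h2 this)

theorem key (ha : orderOf a = p) (hb : orderOf b = p) (za : a ∉ center G) (zb : b ∉ center G)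
    (hc : C1[a].index.Coprime C1[b].index) : ∃ t u : ℕ, t.Prime ∧ u.Prime ∧ t ∣ C1[a].index ∧
      u ∣ C1[b].index ∧ ∃ z : G, p ∣ orderOf z ∧ t ∣ C1[z].index ∧ u ∣ C1[z].index := by
  by_contra q
  have H : ∀ z : G, p ∣ orderOf z →
      C1[z].index.Coprime C1[a].index ∨ C1[z].index.Coprime C1[b].index := fun z hz => by
    by_contra! e
    obtain ⟨t, h1, h2, h3⟩ := Nat.Prime.not_coprime_iff_dvd.1 e.1
    obtain ⟨u, k1, k2, k3⟩ := Nat.Prime.not_coprime_iff_dvd.1 e.2
    exact q ⟨t, u, h1, k1, h3, k3, z, hz, h2, k2⟩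
  by_cases pb : p ∣ C1[b].index
  · exact key0 hb ha zb za hc.symm (fun e => hp.out.one_lt.ne' (Nat.eq_one_of_dvd_coprimes hc e pb))
      fun z hz => (H z hz).symm
  · exact key0 ha hb za zb hc pb H

theorem exists_pow {x : G} (h : p ∣ orderOf x) :
    ∃ a : G, orderOf a = p ∧ C1[a].index ∣ C1[x].index :=
  ⟨x ^ (orderOf x / p), orderOf_pow_orderOf_div (orderOf_pos x).ne' h,
    index_dvd_of_le (H8.centralizer_le_of_mem_zpowers (npow_mem_zpowers x _))⟩

end H15.Ps
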