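import Cfsg.Agent.H4.Dk2
import Cfsg.Agent.H22.IsoF

/-! `p'`-subgroups of `PGL₂(p)` with large point stabilizers. -/

set_option autoImplicit false
set_option linter.unusedSectionVars false

namespace H15.Rv

open Subgroup MulAction H4
open scoped MatrixGroups LinearAlgebra.Projectivization

theorem a4 : ∀ x : Equiv.Perm (Fin 4), Equiv.Perm.sign x = 1 → x ^ 2 = 1 ∨ x ^ 3 = 1 := by
  decide +kernel

theorem s4 : ∀ x : Equiv.Perm (Fin 4), x ^ 4 = 1 ∨ x ^ 3 = 1 := by decide +kernel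

theorem a5 : ∀ x : Equiv.Perm (Fin 5), Equiv.Perm.sign x = 1 → x ^ 2 = 1 ∨ x ^ 3 = 1 ∨ x ^ 5 = 1 := by
  decide +kernel

theorem v4 : (Finset.univ.filter fun y : Equiv.Perm (Fin 4) =>
    y ≠ 1 ∧ y ^ 2 = 1 ∧ Equiv.Perm.sign y = 1).card = 3 := by decide +kernel

theorem pgl {p : ℕ} [hp : Fact p.Prime] {H : Subgroup PGL(2, ZMod p)} (hH : ¬ p ∣ Nat.card H)
    {ι : Type} [Fintype ι] {x : ι → ℙ (ZMod p) (Fin 2 → ZMod p)} (hx : Function.Injective x)
    (h : ∀ i, ∃ g ∈ H, g • x i = x i ∧ ∀ k, g ^ k = 1 → p - 1 ∣ 3 * k) (h3 : 3 ≤ Fintype.card ι) :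
    p ≤ 7 ∨ (p = 13 ∧ Fintype.card ι ≤ 6) := by
  classical
  rw [or_iff_not_imp_left, not_le]
  intro h7
  choose g g1 g2 g3 using h
  have od := hp.out.eq_two_or_odd
  have k : ∀ i k, 0 < k → g i ^ k = 1 → p ≤ 3 * k + 1 := fun i k a b => by
    have := Nat.le_of_dvd (by omega) (g3 i k b); omega
  have k2 : ∀ i, g i ^ 2 ≠ 1 := fun i e => by have := k i 2 two_pos e; omega
  have k3 : ∀ i, g i ^ 3 ≠ 1 := fun i e => by
    have := k i 3 (by omega) e
    have := g3 i 3 e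
    interval_cases p <;> omega
  have k5 : ∀ i, g i ^ 5 ≠ 1 := fun i e => by
    have := k i 5 (by omega) e
    have := g3 i 5 e
    interval_cases p <;> omega
  obtain ⟨a, b, c, hab, hac, hbc⟩ := Fintype.two_lt_card_iff.1 h3
  have nc : ¬ ∀ i j, Commute (g i) (g j) := fun e => by
    have f : ∀ i j, g i ^ 2 • x j = x j := fun i j => by
      have f1 : ∀ n : ℕ, g j • g i ^ n • x j = g i ^ n • x j := fun n => by
        rw [← mul_smul, ((e j i).pow_right n).eq, mul_smul, g2]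
      by_contra e2
      have e1 : g i ^ 1 • x j ≠ x j := fun e1 => e2 (by
        rw [pow_one] at e1; rw [sq, mul_smul, e1, e1])
      have e3 : g i ^ 1 • x j ≠ g i ^ 2 • x j := fun e3 => e1 (by
        rw [pow_one, sq, mul_smul] at e3
        rw [pow_one, ← smul_left_cancel _ e3])
      exact k2 j (by rw [H22.pgl_two_sharp (g j) (Ne.symm e1) (Ne.symm e2) e3 (g2 j)
        (f1 1) (f1 2), one_pow])
    exact k2 a (H22.pgl_two_sharp _ (hx.ne hab) (hx.ne hac) (hx.ne hbc) (f a a) (f a b) (f a c))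
  have pw : ∀ {X : Type} [Group X] (e : H ≃* X) (i : ι) (n : ℕ), e ⟨g i, g1 i⟩ ^ n = 1 →
      g i ^ n = 1 := fun e i n k => congrArg Subtype.val
    (e.injective (a₁ := ⟨g i, g1 i⟩ ^ n) (a₂ := 1) (by rw [map_pow, k, map_one]))
  rcases dickson_pgl p H with ⟨y, hy⟩ | ⟨u, hu, h2⟩ |
    ⟨-, ⟨⟨e⟩⟩ | ⟨⟨e⟩⟩ | ⟨⟨e⟩⟩⟩ | ⟨e, -⟩ | ⟨E, P, hE, h⟩
  · refine (nc fun i j => commutatorElement_eq_one_iff_commute.1 (by_contra fun e => hH ?_)).elim
    refine (orderOf_eq_prime (commutator_pow_of_fix p (hy (g1 i)) (hy (g1 j))) e).symm.dvd.trans ?_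
    exact H.orderOf_dvd_natCard (mul_mem (mul_mem (mul_mem (g1 i) (g1 j)) (inv_mem (g1 i)))
      (inv_mem (g1 j)))
  · have d := dih_pN hu
    have m : ∀ i, g i ∈ pT u := fun i => by_contra fun e => k2 i (by
      rw [sq]; exact d.sq _ (h2 (g1 i)) e)
    have := isCyclic_pT hu
    exact (nc fun i j => congrArg Subtype.val
      (IsCyclic.isMulCommutative.1.1 (⟨_, m i⟩ : pT u) ⟨_, m j⟩)).elim
  · rcases a4 _ (e ⟨g a, g1 a⟩).2 with k | k
    exacts [(k2 a (pw e a 2 (Subtype.ext k))).elim, (k3 a (pw e a 3 (Subtype.ext k))).elim]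
  · have k4 : ∀ i, e ⟨g i, g1 i⟩ ^ 4 = 1 := fun i =>
      (s4 _).resolve_right fun k => k3 i (pw e i 3 k)
    refine ⟨?_, by_contra fun k6 => ?_⟩
    · have := k a 4 (by omega) (pw e a 4 (k4 a))
      have := g3 a 4 (pw e a 4 (k4 a))
      interval_cases p <;> omega
    obtain ⟨y, -, hy⟩ := Finset.exists_lt_card_fiber_of_mul_lt_card_of_maps_to (s := Finset.univ)
      (f := fun i => e ⟨g i, g1 i⟩ ^ 2) (n := 2) (t := Finset.univ.filter
        fun y : Equiv.Perm (Fin 4) => y ≠ 1 ∧ y ^ 2 = 1 ∧ Equiv.Perm.sign y = 1)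
      (fun i _ => Finset.mem_filter.2 ⟨Finset.mem_univ _, fun k => k2 i (pw e i 2 k),
        by rw [← pow_mul, k4], by simp⟩) (by rw [v4, Finset.card_univ]; omega)
    obtain ⟨a, b, c, ha, hb, hc, hab, hac, hbc⟩ := Finset.two_lt_card_iff.1 hy
    have f : ∀ i ∈ Finset.univ.filter fun i => e ⟨g i, g1 i⟩ ^ 2 = y, g a ^ 2 • x i = x i := by
      intro i hi
      have : g a ^ 2 = g i ^ 2 := congrArg Subtype.val (e.injective (a₁ := ⟨g a, g1 a⟩ ^ 2)
        (a₂ := ⟨g i, g1 i⟩ ^ 2) (by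
          rw [map_pow, map_pow, (Finset.mem_filter.1 ha).2, (Finset.mem_filter.1 hi).2]))
      rw [this, sq, mul_smul, g2, g2]
    exact k2 a (H22.pgl_two_sharp _ (hx.ne hab) (hx.ne hac) (hx.ne hbc) (f a ha) (f b hb) (f c hc))
  · rcases a5 _ (e ⟨g a, g1 a⟩).2 with k | k | k
    exacts [(k2 a (pw e a 2 (Subtype.ext k))).elim, (k3 a (pw e a 3 (Subtype.ext k))).elim,
      (k5 a (pw e a 5 (Subtype.ext k))).elim]
  · omega
  · refine (hH ?_).elim
    obtain rfl : E = ⊤ := Subsingleton.elim _ _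
    have c : Nat.card (⊤ : Subfield (ZMod p)) = p :=
      (Nat.card_congr Subfield.topEquiv.toEquiv).trans (Nat.card_zmod p)
    have d : p ∣ Nat.card (pslS (⊤ : Subfield (ZMod p))) := by
      have := card_pslS (⊤ : Subfield (ZMod p))
      rw [c] at this
      refine (hp.out.dvd_mul.1 ((dvd_mul_right p _).trans this.symm.dvd)).resolve_left fun e => ?_
      have := Nat.le_of_dvd two_pos (e.trans (Nat.gcd_dvd_left _ _))
      omega
    rcases h with rfl | rfl <;> rw [card_map_of_injective (MulAut.conj P).injective]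
    exacts [d, d.trans (card_dvd_of_le (pslS_le_pglS _))]

end H15.Rv
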