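import Cfsg.Agent.H15.Rv1
import Cfsg.Prelude.Def_Transfer

/-! Fusion in extraspecial Sylow subgroups of order `p ^ 3` and exponent `p`. -/

set_option autoImplicit false
set_option linter.unusedSectionVars false

namespace H15.Rv

open Subgroup MulAction H4
open scoped Matrix MatrixGroups LinearAlgebra.Projectivization commutatorElement

variable {G : Type*} [Group G] {p : ℕ} [hp : Fact p.Prime]

/-- `g` acts on `⟨z, u⟩` by an integral matrix -/
def S (z u g : G) (a b c d : ℤ) : Prop := g * z * g⁻¹ = z ^ a * u ^ b ∧ g * u * g⁻¹ = z ^ c * u ^ d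

section
variable {z u g h : G} {a b c d a' b' c' d' : ℤ}

theorem S.app (k : S z u g a b c d) (hc : Commute z u) (i j : ℤ) :
    g * (z ^ i * u ^ j) * g⁻¹ = z ^ (a * i + c * j) * u ^ (b * i + d * j) := by
  rw [← conj_mul, ← conj_zpow, ← conj_zpow, k.1, k.2, (hc.zpow_zpow _ _).mul_zpow,
    (hc.zpow_zpow _ _).mul_zpow, ← zpow_mul, ← zpow_mul, ← zpow_mul, ← zpow_mul, zpow_add, zpow_add,
    (hc.symm.zpow_zpow _ _).mul_mul_mul_comm]

theorem S.mul (k : S z u g a b c d) (k' : S z u h a' b' c' d') (hc : Commute z u) :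
    S z u (g * h) (a * a' + c * b') (b * a' + d * b') (a * c' + c * d') (b * c' + d * d') := by
  have e : ∀ x, g * h * x * (g * h)⁻¹ = g * (h * x * h⁻¹) * g⁻¹ := fun x => by group
  exact ⟨by rw [e, k'.1, k.app hc], by rw [e, k'.2, k.app hc]⟩

theorem zp {X : Type*} [Group X] {z : X} (hz : z ^ p = 1) (e : (a : ZMod p) = b) : z ^ a = z ^ b :=
  zpow_eq_zpow_iff_modEq.2 (((ZMod.intCast_eq_intCast_iff _ _ _).1 e).of_dvd
    (Int.natCast_dvd_natCast.2 (orderOf_dvd_of_pow_eq_one hz)))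

theorem S.congr (k : S z u g a b c d) (hz : z ^ p = 1) (hu : u ^ p = 1) (h1 : (a : ZMod p) = a')
    (h2 : (b : ZMod p) = b') (h3 : (c : ZMod p) = c') (h4 : (d : ZMod p) = d') :
    S z u g a' b' c' d' :=
  ⟨by rw [k.1, zp hz h1, zp hu h2], by rw [k.2, zp hz h3, zp hu h4]⟩

theorem S.swap (k : S z u g a b c d) (hc : Commute z u) : S u z g d c b a :=
  ⟨k.2.trans (hc.zpow_zpow _ _).eq, k.1.trans (hc.zpow_zpow _ _).eq⟩

theorem S.all (k : S z u g 1 b 0 1) (hc : Commute z u) (hz : z ^ p = 1) (hu : u ^ p = 1)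
    (hb : (b : ZMod p) ≠ 0) (t : ℤ) : ∃ g', S z u g' 1 t 0 1 := by
  have : ∀ n : ℕ, S z u (g ^ n) 1 (n * b) 0 1 := fun n => by
    induction n with
    | zero => simp [S]
    | succ n ih =>
      rw [pow_succ]
      exact (ih.mul k hc).congr hz hu (by simp) (by push_cast; ring) (by simp) (by simp)
  exact ⟨_, (this (t * (b : ZMod p)⁻¹).val).congr hz hu rfl (by simp [hb]) rfl rfl⟩

theorem diag (hc : Commute z u) (hz : z ^ p = 1) (hu : u ^ p = 1)
    (h1 : ∀ t, ∃ g, S z u g 1 t 0 1) (h2 : ∀ t, ∃ g, S z u g 1 0 t 1) {i j : ℤ}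
    (e : (i : ZMod p) * j = 1) : ∃ g, S z u g j 0 0 i := by
  have w : ∀ s t : ℤ, (s : ZMod p) * t = 1 → ∃ g, S z u g 0 (-s) t 0 := fun s t e => by
    obtain ⟨x, hx⟩ := h1 (-s)
    obtain ⟨y, hy⟩ := h2 t
    exact ⟨_, ((hy.mul hx hc).mul hy hc).congr hz hu (by push_cast; linear_combination -e)
      (by push_cast; ring) (by push_cast; linear_combination -(t : ZMod p) * e)
      (by push_cast; linear_combination -e)⟩
  obtain ⟨x, hx⟩ := w i j e
  obtain ⟨y, hy⟩ := w (-1) (-1) (by simp)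
  exact ⟨_, (hx.mul hy hc).congr hz hu (by simp) (by simp) (by simp) (by simp)⟩

theorem S.inv {i j : ℤ} (k : S z u g j 0 0 i) (hz : z ^ p = 1) (hu : u ^ p = 1)
    (e : (i : ZMod p) * j = 1) : S z u g⁻¹ i 0 0 j := by
  have f : ∀ (x : G) (i j : ℤ), x ^ p = 1 → (i : ZMod p) * j = 1 → g * x * g⁻¹ = x ^ j →
      g⁻¹ * x * g⁻¹⁻¹ = x ^ i := fun x i j a b c => by
    have : g * x ^ i * g⁻¹ = x := by
      rw [← conj_zpow, c, ← zpow_mul, zp (b := 1) a (by push_cast; linear_combination b), zpow_one]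
    conv_lhs => rw [← this]
    group
  exact ⟨by simpa using f z i j hz e (by simpa using k.1),
    by simpa using f u j i hu (by rwa [mul_comm]) (by simpa using k.2)⟩

/-- the elements acting as transvections -/
def Y (hc : Commute z u) : Subgroup G where
  carrier := {y | ∃ t, S z u y 1 0 t 1}
  one_mem' := ⟨0, by simp [S]⟩
  mul_mem' := fun ⟨s, a⟩ ⟨t, b⟩ => ⟨t + s, by simpa using a.mul b hc⟩
  inv_mem' := fun {y} ⟨t, a, b⟩ => by
    simp only [zpow_one, zpow_zero, mul_one] at a b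
    have a' : y⁻¹ * z * y⁻¹⁻¹ = z := by
      conv_lhs => rw [← a]
      group
    refine ⟨-t, by simpa using a', ?_⟩
    have a2 : y⁻¹ * z ^ t * y⁻¹⁻¹ = z ^ t := by rw [← conj_zpow, a']
    calc y⁻¹ * u * y⁻¹⁻¹ = y⁻¹ * (z ^ t)⁻¹ * (z ^ t * u) * y := by group
      _ = (y⁻¹ * z ^ t * y⁻¹⁻¹)⁻¹ * u := by rw [← b]; group
      _ = _ := by rw [a2, zpow_neg, zpow_one]

theorem lift [Finite G] (P : Sylow p G) (hc : Commute z u) (hz : z ^ p = 1) (hu : u ^ p = 1)
    (hP : (P : Subgroup G) ≤ Y hc) {i j : ℤ} (e : (i : ZMod p) * j = 1) (k : S z u g j 0 0 i) :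
    ∃ n ∈ normalizer ((P : Subgroup G) : Set G), ∃ t, S z u n j 0 t i := by
  have c2 : ((g • P : Sylow p G) : Subgroup G) ≤ Y hc := by
    rintro _ ⟨x, hx, rfl⟩
    obtain ⟨t, ht⟩ := hP hx
    exact ⟨_, ((k.mul ht hc).mul (k.inv hz hu e) hc).congr hz hu
      (by push_cast; linear_combination e) (by simp) rfl (by push_cast; linear_combination e)⟩
  obtain ⟨c, hh⟩ := exists_smul_eq (Y hc) ((g • P).subtype c2) (P.subtype hP)
  simp_rw [Sylow.smul_subtype, Subgroup.smul_def, smul_smul] at hh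
  obtain ⟨t, ht⟩ := c.2
  exact ⟨c * g, Sylow.smul_eq_iff_mem_normalizer.mp (Sylow.subtype_injective hh), t * i,
    by simpa using ht.mul k hc⟩

end

theorem coord0 {Q : Type*} [AddCommGroup Q] [Finite Q] [Module (ZMod p) Q]
    (hQ : Nat.card Q = p ^ 2) : Nonempty (Q ≃+ (Fin 2 → ZMod p)) := by
  haveI : Module.Finite (ZMod p) Q := Module.Finite.of_finite
  have : Module.finrank (ZMod p) Q = 2 := Nat.pow_right_injective hp.out.two_le (by
    have := Module.natCard_eq_pow_finrank (K := ZMod p) (V := Q)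
    rw [Nat.card_zmod] at this
    exact this.symm.trans hQ)
  exact ⟨(LinearEquiv.ofFinrankEq (R := ZMod p) Q (Fin 2 → ZMod p) (by simpa using this)).toAddEquiv⟩

theorem coord {Q : Type*} [Group Q] [Finite Q] (hc : ∀ a b : Q, a * b = b * a) (he : ∀ a : Q, a ^ p = 1)
    (hQ : Nat.card Q = p ^ 2) : Nonempty (Q ≃* Multiplicative (Fin 2 → ZMod p)) := by
  letI : CommGroup Q := { (inferInstance : Group Q) with mul_comm := hc }
  obtain ⟨e⟩ := @coord0 p _ (Additive Q) _ _ (AddCommGroup.zmodModule fun x =>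
    Additive.toMul.injective (he x.toMul)) hQ
  exact ⟨AddEquiv.toMultiplicativeRight e⟩

theorem exists_rho {P : Type*} [Group P] (π : P →* Multiplicative (Fin 2 → ZMod p))
    (hs : Function.Surjective π) (hk : π.ker = center P) :
    ∃ ρ : MulAut P →* GL (Fin 2) (ZMod p), ∀ ψ q, (ρ ψ).1 *ᵥ (π q).toAdd = (π (ψ q)).toAdd := by
  have : ∀ ψ : MulAut P, ∃ M : Matrix (Fin 2) (Fin 2) (ZMod p), ∀ q,
      M *ᵥ (π q).toAdd = (π (ψ q)).toAdd := fun ψ => by
    let f := π.liftOfSurjective hs ⟨π.comp ψ.toMonoidHom, fun x hx => by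
      rw [hk] at hx
      show ψ x ∈ π.ker
      rw [hk]
      exact MulEquivClass.apply_mem_center ψ hx⟩
    refine ⟨LinearMap.toMatrix' ((AddMonoidHom.toMultiplicative.symm f).toZModLinearMap p), fun q => ?_⟩
    rw [LinearMap.toMatrix'_mulVec]
    exact congrArg Multiplicative.toAdd (π.liftOfRightInverse_comp_apply _ _ _ q)
  choose M hM using this
  have ex : ∀ A B : Matrix (Fin 2) (Fin 2) (ZMod p),
      (∀ q, A *ᵥ (π q).toAdd = B *ᵥ (π q).toAdd) → A = B := fun A B e =>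
    Matrix.mulVec_injective (funext fun v => let ⟨q, k⟩ := hs (.ofAdd v); by simpa [k] using e q)
  let μ : MulAut P →* Matrix (Fin 2) (Fin 2) (ZMod p) :=
    { toFun := M
      map_one' := ex _ _ fun q => by rw [hM, Matrix.one_mulVec]; rfl
      map_mul' := fun a b => ex _ _ fun q => by rw [← Matrix.mulVec_mulVec, hM, hM, hM]; rfl }
  exact ⟨μ.toHomUnits, hM⟩

theorem comm_pow {P : Type*} [Group P] (h : ∀ x y : P, ⁅x, y⁆ ∈ center P) (x y : P) (n : ℤ) :
    ⁅x ^ n, y⁆ = ⁅x, y⁆ ^ n := by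
  let f : P →* P := MonoidHom.mk' (fun x => ⁅x, y⁆) fun a b => by
    have := mem_center_iff.1 (h b y)
    calc ⁅a * b, y⁆ = a * ⁅b, y⁆ * (y * a⁻¹ * y⁻¹) := by simp only [commutatorElement_def]; group
      _ = ⁅a, y⁆ * ⁅b, y⁆ := by
        rw [this, mul_assoc, ← this]; simp only [commutatorElement_def a, mul_assoc]
  exact f.map_zpow x n

theorem comm_cen {P : Type*} [Group P] {x w : P} (y : P) (hw : w ∈ center P) :
    ⁅x * w, y⁆ = ⁅x, y⁆ := by
  simp only [commutatorElement_def]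
  rw [mul_assoc x, ← mem_center_iff.1 hw y]
  group

variable [Finite G] {P : Sylow p G}

/-- the setting: `z` generates the centre of the extraspecial Sylow subgroup -/
structure Ex (P : Sylow p G) (z : P) : Prop where
  card : Nat.card P = p ^ 3
  exp : ∀ x : P, x ^ p = 1
  cen : center P = zpowers z
  ne : z ≠ 1
  com : commutator P = center P

theorem exists_ex (hE : Cfsg.IsExtraspecial p P) (hc : Nat.card P = p ^ 3)
    (he : Monoid.exponent P = p) : ∃ z, Ex P z := by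
  have := isCyclic_of_prime_card hE.2
  obtain ⟨z, hz⟩ := (Subgroup.isCyclic_iff_exists_zpowers_eq_top _).1 this
  refine ⟨z, hc, fun x => (congrArg (x ^ ·) he).symm.trans (Monoid.pow_exponent_eq_one x), hz.symm, ?_, hE.1.2.2⟩
  rintro rfl
  have := hE.2
  rw [← hz, zpowers_one_eq_bot, card_bot] at this
  exact hp.out.one_lt.ne this

namespace Ex
variable {z u : P} (h : Ex P z)
include h

theorem mem (x y : P) : ⁅x, y⁆ ∈ center P := h.com ▸ commutator_mem_commutator trivial trivial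

theorem pw (x : P) : (x : G) ^ p = 1 := congrArg Subtype.val (h.exp x)

theorem zc : z ∈ center P := h.cen ▸ mem_zpowers z

theorem cm (u : P) : Commute (z : G) u := congrArg Subtype.val (mem_center_iff.1 h.zc u).symm

theorem up (y u : P) : ∃ t : ℤ, ⁅y, u⁆ = z ^ t ∧ S (z : G) u y 1 0 t 1 := by
  obtain ⟨t, ht⟩ : ⁅y, u⁆ ∈ zpowers z := h.cen ▸ h.mem y u
  refine ⟨t, ht.symm, by simp [← (h.cm y).eq], ?_⟩
  have : (z : G) ^ t = y * u * (y : G)⁻¹ * (u : G)⁻¹ := congrArg Subtype.val ht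
  simp [this]

theorem up_all (hu : u ∉ center P) (t : ℤ) : ∃ y : P, S (z : G) u y 1 0 t 1 := by
  obtain ⟨y, hy⟩ : ∃ y, ⁅y, u⁆ ≠ 1 := by
    by_contra! e
    exact hu (mem_center_iff.2 fun y => commutatorElement_eq_one_iff_mul_comm.1 (e y))
  obtain ⟨s, s1, -⟩ := h.up y u
  have s0 : (s : ZMod p) ≠ 0 := fun e => hy (by rw [s1, zp (b := 0) (h.exp z) (by simpa using e), zpow_zero])
  obtain ⟨r, r1, r2⟩ := h.up (y ^ (((t * (s : ZMod p)⁻¹).val : ℕ) : ℤ)) u
  rw [comm_pow h.mem, s1, ← zpow_mul, zp (b := t) (h.exp z) (by simp [s0]; field_simp)] at r1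
  exact ⟨_, r2.1, by rw [r2.2, ← coe_zpow, ← r1, coe_zpow]⟩

theorem good (hu : u ∉ center P) {g : G} {b : ℤ} (k : S (z : G) u g 1 b 0 1) (hb : (b : ZMod p) ≠ 0)
    {i j : ℤ} (e : (i : ZMod p) * j = 1) :
    ∃ n ∈ normalizer ((P : Subgroup G) : Set G), ∃ t, S (z : G) u n j 0 t i := by
  obtain ⟨g, hg⟩ := diag (h.cm u) (h.pw z) (h.pw u) (k.all (h.cm u) (h.pw z) (h.pw u) hb)
    (fun t => let ⟨y, hy⟩ := h.up_all hu t; ⟨y, hy⟩) e
  exact lift P (h.cm u) (h.pw z) (h.pw u)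
    (fun y hy => let ⟨t, _, ht⟩ := h.up ⟨y, hy⟩ u; ⟨t, ht⟩) e hg

theorem exists_pi : ∃ π : P →* Multiplicative (Fin 2 → ZMod p),
    Function.Surjective π ∧ π.ker = center P := by
  obtain ⟨e⟩ := coord (p := p) (Q := P ⧸ center P) (fun a b => by
    obtain ⟨a, rfl⟩ := QuotientGroup.mk_surjective a
    obtain ⟨b, rfl⟩ := QuotientGroup.mk_surjective b
    exact commutatorElement_eq_one_iff_mul_comm.1 ((QuotientGroup.eq_one_iff _).2 (h.mem a b)))
    (fun a => by
      obtain ⟨a, rfl⟩ := QuotientGroup.mk_surjective a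
      rw [← QuotientGroup.mk_pow, h.exp, QuotientGroup.mk_one]) (by
      have := card_eq_card_quotient_mul_card_subgroup (center P)
      rw [h.card, show Nat.card (center P) = p by
        rw [h.cen, Nat.card_zpowers, orderOf_eq_prime (h.exp z) h.ne], pow_succ] at this
      exact (Nat.eq_of_mul_eq_mul_right hp.out.pos this).symm)
  refine ⟨e.toMonoidHom.comp (QuotientGroup.mk' _), e.surjective.comp (QuotientGroup.mk'_surjective _),
    ?_⟩
  ext x
  simp

theorem main {π : P →* Multiplicative (Fin 2 → ZMod p)} (hs : Function.Surjective π)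
    (hk : π.ker = center P) {ι : Type} [Fintype ι] {u : ι → P} (h0 : ∀ i, (π (u i)).toAdd ≠ 0)
    (hx : Function.Injective fun i => Projectivization.mk (ZMod p) _ (h0 i))
    (hg : ∀ i, ∃ (g : G) (b : ℤ), S (z : G) (u i) g 1 b 0 1 ∧ (b : ZMod p) ≠ 0)
    (h3 : 3 ≤ Fintype.card ι) : p ≤ 7 ∨ (p = 13 ∧ Fintype.card ι ≤ 6) := by
  obtain ⟨ρ, hρ⟩ := exists_rho π hs hk
  let φ := (pmk.comp ρ).comp (P : Subgroup G).normalizerMonoidHom
  obtain ⟨β, hβ⟩ := IsCyclic.exists_ofOrder_eq_natCard (α := (ZMod p)ˣ)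
  rw [Nat.card_eq_fintype_card, ZMod.card_units] at hβ
  obtain ⟨i, hi⟩ := ZMod.intCast_surjective (β : ZMod p)
  obtain ⟨j, hj⟩ := ZMod.intCast_surjective ((β⁻¹ : (ZMod p)ˣ) : ZMod p)
  have pz : ∀ (x : P) (n : ℤ), (π (x ^ n)).toAdd = (n : ZMod p) • (π x).toAdd := fun x n => by
    rw [map_zpow, toAdd_zpow, Int.cast_smul_eq_zsmul]
  have p0 : π z = 1 := show z ∈ π.ker from hk ▸ h.zc
  refine pgl (H := φ.range) (fun e => P.not_dvd_index ?_) hx (fun l => ?_) h3
  · rw [← index_ker] at e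
    refine (e.trans (index_dvd_of_le (H := (P : Subgroup G).subgroupOf _) fun x hx => ?_)).trans
      (relIndex_dvd_index_of_le le_normalizer)
    have : ρ ((P : Subgroup G).normalizerMonoidHom x) = 1 := Units.ext (Matrix.mulVec_injective
      (funext fun v => by
        obtain ⟨q, k⟩ := hs (.ofAdd v)
        have := hρ ((P : Subgroup G).normalizerMonoidHom x) q
        rw [show (P : Subgroup G).normalizerMonoidHom x q = ⁅(⟨x, hx⟩ : P), q⁆ * q from
          Subtype.ext (by simp [commutatorElement_def]; rfl), map_mul,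
          show π ⁅_, q⁆ = 1 from show _ ∈ π.ker from hk ▸ h.mem _ _, one_mul, k] at this
        simpa using this))
    simp [φ, MonoidHom.mem_ker, this]
  obtain ⟨g, b, k, hb⟩ := hg l
  obtain ⟨n, hn, t, k1, k2⟩ := h.good (fun e => h0 l (by
    rw [← hk] at e; rw [show π (u l) = 1 from e]; rfl)) k hb (i := i) (j := j) (by rw [hi, hj, Units.mul_inv])
  set ψ := (P : Subgroup G).normalizerMonoidHom ⟨n, hn⟩ with hψ
  have e1 : ψ z = z ^ j := Subtype.ext (k1.trans (by simp))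
  have e2 : (π (ψ (u l))).toAdd = (β : ZMod p) • (π (u l)).toAdd := by
    rw [show ψ (u l) = z ^ t * u l ^ i from Subtype.ext k2, map_mul, map_zpow, p0, one_zpow,
      one_mul, pz, hi]
  refine ⟨_, ⟨⟨n, hn⟩, rfl⟩, (pmk_fix_iff _).2 ⟨_, (hρ _ _).trans e2⟩, fun k hk' => ?_⟩
  have f1 : (ψ ^ k) z = z ^ (j ^ k) := by
    clear hk'
    induction k with
    | zero => simp
    | succ k ih => rw [pow_succ, MulAut.mul_apply, e1, map_zpow, ih, ← zpow_mul, pow_succ]
  have f2 : (π ((ψ ^ k) (u l))).toAdd = (β : ZMod p) ^ k • (π (u l)).toAdd := by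
    clear hk' f1
    induction k with
    | zero => simp
    | succ k ih => rw [pow_succ', MulAut.mul_apply, ← hρ, ih, Matrix.mulVec_smul, hρ, e2, smul_smul,
        pow_succ]
  obtain ⟨c, hc⟩ := pmk_eq_iff.1 (show pmk 1 = pmk (ρ (ψ ^ k)) by
    rw [map_one, map_pow, map_pow]; exact hk'.symm)
  have f3 : ∀ q, (π ((ψ ^ k) q)).toAdd = c • (π q).toAdd := fun q => by
    rw [← hρ, hc, Matrix.smul_mulVec, Units.val_one, Matrix.one_mulVec]
  obtain rfl : (β : ZMod p) ^ k = c := smul_left_injective _ (h0 l) (f2.symm.trans (f3 _))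
  have f4 : ∀ q, ∃ w ∈ center P, (ψ ^ k) q = q ^ (i ^ k) * w := fun q =>
    ⟨(q ^ (i ^ k))⁻¹ * (ψ ^ k) q, hk ▸ show π _ = 1 by
      rw [map_mul, map_inv, inv_mul_eq_one]
      exact Multiplicative.toAdd.injective (by rw [pz, f3, Int.cast_pow, hi]), by simp⟩
  obtain ⟨y, hy⟩ := h.up_all (u := u l) (fun e => h0 l (by
    rw [← hk] at e; rw [show π (u l) = 1 from e]; rfl)) 1
  have f5 : ⁅y, u l⁆ = z := Subtype.ext (by
    have : (y : G) * u l * (y : G)⁻¹ = z * u l := by simpa using hy.2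
    simp [commutatorElement_def, this])
  obtain ⟨w, hw, a1⟩ := f4 y
  obtain ⟨w', hw', a2⟩ := f4 (u l)
  rw [← f5, map_commutatorElement, a1, a2, comm_cen _ hw, comm_pow h.mem, ← commutatorElement_inv,
    comm_cen _ hw', comm_pow h.mem, ← commutatorElement_inv, f5] at f1
  simp only [inv_zpow, inv_inv, ← zpow_mul] at f1
  rw [zpow_eq_zpow_iff_modEq, orderOf_eq_prime (h.exp z) h.ne, ← ZMod.intCast_eq_intCast_iff] at f1
  push_cast at f1
  rw [hi, hj] at f1
  rw [← hβ]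
  refine orderOf_dvd_of_pow_eq_one (Units.ext ?_)
  have : (β : ZMod p) ^ k * ((β⁻¹ : (ZMod p)ˣ) : ZMod p) ^ k = 1 := by rw [← mul_pow, Units.mul_inv, one_pow]
  push_cast
  linear_combination (β : ZMod p) ^ k * f1 + this

end Ex

end H15.Rv
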